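import Cfsg.Agent.H955.QSpace

/-!
# Fields of similitudes of order `q²` (helper708)

`FJ Q J c d` : `J² = c J - d`, `z² - c z + d` has no roots, `Q (J v) = d Q v`.

* `FJ.adj`, `FJ.self`, `FJ.norm` : `Q (x v + y J v) = (x² + c x y + d y²) Q v`
* `exists_isometry` : two such operators with the same `c`, `d` are conjugate under an isometry (`Q` nondegenerate, `F` finite)
-/

set_option autoImplicit false

namespace Cfsg.Agent.H708.Rg

open Module QuadraticMap Cfsg.Agent.LieClassical.OrthCore Cfsg.Agent.LieClassical.OrthTrans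
  Cfsg.Agent.LieClassical.OrthFinite Cfsg.Agent.H955

variable {F V : Type*} [Field F] [AddCommGroup V] [Module F V] {Q : QuadraticForm F V} {J J' : V →ₗ[F] V} {c d : F}

/-- `F[J]` is a field of similitudes -/
structure FJ (Q : QuadraticForm F V) (J : V →ₗ[F] V) (c d : F) : Prop where
  sq : ∀ v, J (J v) = c • J v - d • v
  irr : ∀ z : F, z * z - c * z + d ≠ 0
  sim : ∀ v, Q (J v) = d * Q v

theorem FJ.d0 (h : FJ Q J c d) : d ≠ 0 := by
  intro hd
  apply h.irr 0
  rw [hd]
  ring

theorem FJ.polar_J (h : FJ Q J c d) (u v : V) : polar Q (J u) (J v) = d * polar Q u v := by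
  rw [polar, polar, ← map_add, h.sim, h.sim, h.sim]
  ring

theorem FJ.adj (h : FJ Q J c d) (u v : V) : polar Q (J u) v = c * polar Q u v - polar Q u (J v) := by
  have h1 : J (c • v - J v) = d • v := by
    rw [map_sub, map_smul, h.sq]
    abel
  have h2 := h.polar_J u (c • v - J v)
  rw [h1, polar_smul_right, polar_sub_right, polar_smul_right, smul_eq_mul, smul_eq_mul] at h2
  exact mul_left_cancel₀ h.d0 h2

/-- perfectness -/
theorem exists_sqrt [Finite F] (h2 : (2 : F) = 0) (d : F) : ∃ z : F, z * z = d := by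
  have : Fintype F := Fintype.ofFinite F
  have hc : ringChar F = 2 := by
    have h3 : CharP F 2 := CharTwo.of_one_ne_zero_of_two_eq_zero one_ne_zero h2
    exact ringChar.eq F 2
  obtain ⟨z, hz⟩ := FiniteField.isSquare_of_char_two hc d
  exact ⟨z, hz.symm⟩

theorem FJ.self [Finite F] (h : FJ Q J c d) (v : V) : polar Q v (J v) = c * Q v := by
  by_cases h2 : (2 : F) = 0
  · obtain ⟨z, hz⟩ := exists_sqrt h2 d
    -- the additive map `f v = polar v (J v) - c Q v`
    have key : ∀ u v : V, polar Q (u + v) (J (u + v)) - c * Q (u + v) =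
        (polar Q u (J u) - c * Q u) + (polar Q v (J v) - c * Q v) := by
      intro u v
      rw [map_add, polar_add_left, polar_add_right, polar_add_right, Q_add, polar_comm Q v (J u), h.adj u v]
      ring
    have hs : ∀ v : V, polar Q (J v) (J (J v)) - c * Q (J v) = d * (polar Q v (J v) - c * Q v) := by
      intro v
      rw [h.polar_J, h.sim]
      ring
    have ht : ∀ (t : F) (v : V), polar Q (t • v) (J (t • v)) - c * Q (t • v) = t * t * (polar Q v (J v) - c * Q v) := by
      intro t v
      rw [map_smul, polar_smul_left, polar_smul_right, QuadraticMap.map_smul]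
      simp only [smul_eq_mul]
      ring
    -- `J - z` is surjective
    set k := z * z - c * z + d with hk
    have hk0 : k ≠ 0 := h.irr z
    have hw : ∃ w : V, J w + z • w = v := by
      refine ⟨-(k⁻¹ • (J v - (c + z) • v)), ?_⟩
      have h3 : J (J v - (c + z) • v) + z • (J v - (c + z) • v) = -(k • v) := by
        have h4 : z + z = 0 := by linear_combination z * h2
        rw [map_sub, map_smul, h.sq, hk]
        have h5 : c • J v - d • v - (c + z) • J v + z • (J v - (c + z) • v) = -((d + z * (c + z)) • v) := by module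
        rw [h5]
        congr 2
        linear_combination (c * z) * h2
      rw [map_neg, map_smul, smul_neg, smul_comm z, ← neg_add, ← smul_add, h3, smul_neg, neg_neg, smul_smul,
        inv_mul_cancel₀ hk0, one_smul]
    obtain ⟨w, rfl⟩ := hw
    have h3 := key (J w) (z • w)
    rw [hs, ht, hz] at h3
    have h4 : polar Q (J w + z • w) (J (J w + z • w)) - c * Q (J w + z • w) = 0 := by
      rw [h3]
      linear_combination (d * (polar Q w (J w) - c * Q w)) * h2
    linear_combination h4
  · have h1 := h.adj v v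
    rw [polar_comm Q (J v) v, polar_self, nsmul_eq_mul] at h1
    push_cast at h1
    apply mul_left_cancel₀ h2
    linear_combination h1

theorem FJ.norm [Finite F] (h : FJ Q J c d) (x y : F) (v : V) :
    Q (x • v + y • J v) = (x * x + c * (x * y) + d * (y * y)) * Q v := by
  rw [Q_add, QuadraticMap.map_smul, QuadraticMap.map_smul, h.sim, polar_smul_left, polar_smul_right, h.self]
  simp only [smul_eq_mul]
  ring

theorem FJ.disc [Finite F] (h : FJ Q J c d) : 4 * d - c * c ≠ 0 := by
  intro h0
  by_cases h2 : (2 : F) = 0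
  · obtain ⟨z, hz⟩ := exists_sqrt h2 d
    have hc : c = 0 := by
      apply mul_self_eq_zero.1
      linear_combination (2 * d) * h2 - h0
    apply h.irr z
    rw [hz, hc]
    linear_combination d * h2
  · apply h.irr (c / 2)
    field_simp
    linear_combination h0

theorem FJ.norm_surj [Finite F] (h : FJ Q J c d) (t : F) : ∃ x y : F, x * x + c * (x * y) + d * (y * y) = t := by
  obtain ⟨x, hx0, hx⟩ := exists_ternary_zero 1 d (-t) c 0 0
  have h2 : x 2 ≠ 0 := by
    intro h2
    rw [h2] at hx
    by_cases h1 : x 1 = 0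
    · rw [h1] at hx
      have h0 : x 0 = 0 := by
        apply mul_self_eq_zero.1
        linear_combination hx
      apply hx0
      funext i
      fin_cases i
      · exact h0
      · exact h1
      · exact h2
    · apply h.irr (-(x 0 / x 1))
      field_simp
      linear_combination hx
  refine ⟨x 0 / x 2, x 1 / x 2, ?_⟩
  field_simp
  linear_combination hx

/-! ### Orthonormal bases -/

/-- orthonormal families over `F[J]` -/
structure Onb (Q : QuadraticForm F V) (J : V →ₗ[F] V) {n : ℕ} (v : Fin n → V) : Prop where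
  one : ∀ i, Q (v i) = 1
  orth : ∀ i j, i ≠ j → polar Q (v i) (v j) = 0
  orthJ : ∀ i j, i ≠ j → polar Q (v i) (J (v j)) = 0

/-- the combinations over `F[J]` -/
def phi (J : V →ₗ[F] V) {n : ℕ} (v : Fin n → V) : ((Fin n → F) × (Fin n → F)) →ₗ[F] V where
  toFun x := ∑ i, (x.1 i • v i + x.2 i • J (v i))
  map_add' x y := by
    rw [← Finset.sum_add_distrib]
    refine Finset.sum_congr rfl fun i _ => ?_
    simp only [Prod.fst_add, Prod.snd_add, Pi.add_apply, add_smul]
    abel
  map_smul' t x := by
    rw [RingHom.id_apply, Finset.smul_sum]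
    refine Finset.sum_congr rfl fun i _ => ?_
    simp only [Prod.smul_fst, Prod.smul_snd, Pi.smul_apply, smul_eq_mul, smul_add, mul_smul]

theorem phi_apply {n : ℕ} (v : Fin n → V) (x : (Fin n → F) × (Fin n → F)) :
    phi J v x = ∑ i, (x.1 i • v i + x.2 i • J (v i)) := rfl

theorem J_phi (h : FJ Q J c d) {n : ℕ} (v : Fin n → V) (x : (Fin n → F) × (Fin n → F)) :
    J (phi J v x) = phi J v (-(d • x.2), x.1 + c • x.2) := by
  rw [phi_apply, phi_apply, map_sum]
  refine Finset.sum_congr rfl fun i _ => ?_
  rw [map_add, map_smul, map_smul, h.sq]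
  simp only [Pi.neg_apply, Pi.smul_apply, Pi.add_apply, smul_eq_mul]
  module

theorem polar_sum_left {ι : Type*} (s : Finset ι) (f : ι → V) (w : V) :
    polar Q (∑ i ∈ s, f i) w = ∑ i ∈ s, polar Q (f i) w := by
  classical
  induction s using Finset.induction_on with
  | empty => rw [Finset.sum_empty, Finset.sum_empty, polar_zero_left]
  | insert a s ha ih => rw [Finset.sum_insert ha, Finset.sum_insert ha, polar_add_left, ih]

theorem Q_sum {ι : Type*} (s : Finset ι) (f : ι → V) (hf : ∀ i j, i ≠ j → polar Q (f i) (f j) = 0) :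
    Q (∑ i ∈ s, f i) = ∑ i ∈ s, Q (f i) := by
  classical
  induction s using Finset.induction_on with
  | empty => rw [Finset.sum_empty, Finset.sum_empty, QuadraticMap.map_zero]
  | insert a s ha ih =>
    have h1 : ∑ i ∈ s, polar Q (f i) (f a) = 0 := by
      refine Finset.sum_eq_zero fun i hi => hf i a ?_
      rintro rfl
      exact ha hi
    rw [Finset.sum_insert ha, Finset.sum_insert ha, Q_add, ih, polar_comm, polar_sum_left, h1, add_zero]

theorem Onb.orthJ' {n : ℕ} {v : Fin n → V} (hv : Onb Q J v) {i j : Fin n} (hij : i ≠ j) :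
    polar Q (J (v i)) (v j) = 0 := by
  rw [polar_comm]
  exact hv.orthJ j i hij.symm

theorem Onb.Q_phi [Finite F] (h : FJ Q J c d) {n : ℕ} {v : Fin n → V} (hv : Onb Q J v) (x : (Fin n → F) × (Fin n → F)) :
    Q (phi J v x) = ∑ i, (x.1 i * x.1 i + c * (x.1 i * x.2 i) + d * (x.2 i * x.2 i)) := by
  rw [phi_apply, Q_sum]
  · refine Finset.sum_congr rfl fun i _ => ?_
    rw [h.norm, hv.one, mul_one]
  · intro i j hij
    rw [polar_add_left, polar_add_right, polar_add_right, polar_smul_left, polar_smul_left, polar_smul_right,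
      polar_smul_right, polar_smul_left, polar_smul_left, polar_smul_right, polar_smul_right, hv.orth i j hij,
      hv.orthJ i j hij, hv.orthJ' hij, h.polar_J, hv.orth i j hij]
    simp

theorem Onb.polar_phi [Finite F] (h : FJ Q J c d) {n : ℕ} {v : Fin n → V} (hv : Onb Q J v)
    (x : (Fin n → F) × (Fin n → F)) (j : Fin n) : polar Q (phi J v x) (v j) = 2 * x.1 j + c * x.2 j := by
  rw [phi_apply, polar_sum_left, Finset.sum_eq_single j]
  · rw [polar_add_left, polar_smul_left, polar_smul_left, polar_self, polar_comm Q (J (v j)), h.self, hv.one,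
      nsmul_eq_mul, smul_eq_mul, smul_eq_mul]
    push_cast
    ring
  · intro i _ hij
    rw [polar_add_left, polar_smul_left, polar_smul_left, hv.orth i j hij, hv.orthJ' hij]
    simp
  · intro h0
    exact absurd (Finset.mem_univ j) h0

theorem Onb.polar_phiJ [Finite F] (h : FJ Q J c d) {n : ℕ} {v : Fin n → V} (hv : Onb Q J v)
    (x : (Fin n → F) × (Fin n → F)) (j : Fin n) : polar Q (phi J v x) (J (v j)) = c * x.1 j + 2 * d * x.2 j := by
  rw [phi_apply, polar_sum_left, Finset.sum_eq_single j]
  · rw [polar_add_left, polar_smul_left, polar_smul_left, polar_self, h.self, h.sim, hv.one,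
      nsmul_eq_mul, smul_eq_mul, smul_eq_mul]
    push_cast
    ring
  · intro i _ hij
    rw [polar_add_left, polar_smul_left, polar_smul_left, hv.orthJ i j hij, h.polar_J, hv.orth i j hij]
    simp
  · intro h0
    exact absurd (Finset.mem_univ j) h0

theorem Onb.eq_zero [Finite F] (h : FJ Q J c d) {n : ℕ} {v : Fin n → V} (hv : Onb Q J v)
    {x : (Fin n → F) × (Fin n → F)} (h1 : ∀ j, polar Q (phi J v x) (v j) = 0)
    (h2 : ∀ j, polar Q (phi J v x) (J (v j)) = 0) : x = 0 := by
  have h3 : ∀ j, x.1 j = 0 ∧ x.2 j = 0 := by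
    intro j
    have h4 := h1 j
    have h5 := h2 j
    rw [hv.polar_phi h] at h4
    rw [hv.polar_phiJ h] at h5
    constructor
    · refine (mul_eq_zero.1 ?_).resolve_left h.disc
      linear_combination (2 * d) * h4 - c * h5
    · refine (mul_eq_zero.1 ?_).resolve_left h.disc
      linear_combination 2 * h5 - c * h4
  refine Prod.ext (funext fun j => (h3 j).1) (funext fun j => (h3 j).2)

theorem Onb.injective [Finite F] (h : FJ Q J c d) {n : ℕ} {v : Fin n → V} (hv : Onb Q J v) :
    Function.Injective (phi J v) := by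
  rw [injective_iff_map_eq_zero]
  intro x hx
  apply hv.eq_zero h
  · intro j
    rw [hx, polar_zero_left]
  · intro j
    rw [hx, polar_zero_left]

theorem phi_v {n : ℕ} (v : Fin n → V) (j : Fin n) : phi J v (Pi.single j 1, 0) = v j := by
  rw [phi_apply, Finset.sum_eq_single j]
  · simp
  · intro i _ hij
    simp [hij]
  · intro h0
    exact absurd (Finset.mem_univ j) h0

theorem phi_Jv {n : ℕ} (v : Fin n → V) (j : Fin n) : phi J v (0, Pi.single j 1) = J (v j) := by
  rw [phi_apply, Finset.sum_eq_single j]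
  · simp
  · intro i _ hij
    simp [hij]
  · intro h0
    exact absurd (Finset.mem_univ j) h0

theorem Onb.exists_next [Finite F] [FiniteDimensional F V] (hQ : Nondeg Q) (h : FJ Q J c d) {n : ℕ} {v : Fin n → V}
    (hv : Onb Q J v) (hn : 2 * n < finrank F V) :
    ∃ z : V, Q z = 1 ∧ (∀ i, polar Q (v i) z = 0) ∧ ∀ i, polar Q (v i) (J z) = 0 := by
  set S := LinearMap.range (phi J v) with hS
  have hvS : ∀ j, v j ∈ S := fun j => ⟨_, phi_v v j⟩
  have hJvS : ∀ j, J (v j) ∈ S := fun j => ⟨_, phi_Jv v j⟩
  have hJS : ∀ w ∈ S, J w ∈ S := by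
    rintro _ ⟨x, rfl⟩
    exact ⟨_, (J_phi h v x).symm⟩
  have hdS : finrank F S ≤ 2 * n := by
    refine (LinearMap.finrank_range_le _).trans ?_
    rw [Module.finrank_prod, Module.finrank_fin_fun]
    omega
  have hP : perp Q S ≠ ⊥ := by
    intro h0
    have h1 := finrank_perp hQ S
    rw [h0, finrank_bot] at h1
    omega
  have hPJ : ∀ z ∈ perp Q S, J z ∈ perp Q S := by
    intro z hz w hw
    have h1 : polar Q w (J z) = c * polar Q w z - polar Q (J w) z := by
      rw [h.adj]
      ring
    rw [h1, hz w hw, hz _ (hJS w hw)]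
    ring
  obtain ⟨z, hz, hQz⟩ : ∃ z ∈ perp Q S, Q z ≠ 0 := by
    by_contra hc
    push Not at hc
    obtain ⟨z, hz, hz0⟩ := (Submodule.ne_bot_iff _).1 hP
    apply hz0
    have h1 : z ∈ perp Q (perp Q S) := by
      intro w hw
      have h2 := hc _ (Submodule.add_mem _ hw hz)
      rw [Q_add, hc w hw, hc z hz] at h2
      linear_combination h2
    rw [perp_perp hQ] at h1
    obtain ⟨x, rfl⟩ := h1
    rw [hv.eq_zero h (x := x) (fun j => by rw [polar_comm]; exact hz _ (hvS j))
      (fun j => by rw [polar_comm]; exact hz _ (hJvS j)), map_zero]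
  obtain ⟨x, y, hxy⟩ := h.norm_surj (Q z)⁻¹
  have hz' : x • z + y • J z ∈ perp Q S :=
    Submodule.add_mem _ (Submodule.smul_mem _ _ hz) (Submodule.smul_mem _ _ (hPJ z hz))
  refine ⟨x • z + y • J z, ?_, fun i => hz' _ (hvS i), fun i => hPJ _ hz' _ (hvS i)⟩
  rw [h.norm, hxy, inv_mul_cancel₀ hQz]

theorem exists_onb [Finite F] [FiniteDimensional F V] (hQ : Nondeg Q) (h : FJ Q J c d) (n : ℕ) (hn : 2 * n ≤ finrank F V) :
    ∃ v : Fin n → V, Onb Q J v := by
  induction n with
  | zero => exact ⟨fun i => i.elim0, ⟨fun i => i.elim0, fun i => i.elim0, fun i => i.elim0⟩⟩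
  | succ n ih =>
    obtain ⟨v, hv⟩ := ih (by omega)
    obtain ⟨z, hz1, hz2, hz3⟩ := hv.exists_next hQ h (by omega)
    refine ⟨Fin.cons z v, ⟨?_, ?_, ?_⟩⟩
    · intro i
      refine Fin.cases ?_ (fun i => ?_) i
      · exact hz1
      · exact hv.one i
    · intro i j
      refine Fin.cases ?_ (fun i => ?_) i <;> refine Fin.cases ?_ (fun j => ?_) j
      · intro h0
        exact absurd rfl h0
      · intro _
        rw [Fin.cons_zero, Fin.cons_succ, polar_comm]
        exact hz2 j
      · intro _
        rw [Fin.cons_zero, Fin.cons_succ]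
        exact hz2 i
      · intro hij
        rw [Fin.cons_succ, Fin.cons_succ]
        exact hv.orth i j fun h0 => hij (by rw [h0])
    · intro i j
      refine Fin.cases ?_ (fun i => ?_) i <;> refine Fin.cases ?_ (fun j => ?_) j
      · intro h0
        exact absurd rfl h0
      · intro _
        rw [Fin.cons_zero, Fin.cons_succ, polar_comm, h.adj, hz2, hz3]
        ring
      · intro _
        rw [Fin.cons_zero, Fin.cons_succ]
        exact hz3 i
      · intro hij
        rw [Fin.cons_succ, Fin.cons_succ]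
        exact hv.orthJ i j fun h0 => hij (by rw [h0])

/-- **conjugacy** -/
theorem exists_isometry [Finite F] [FiniteDimensional F V] (hQ : Nondeg Q) (h : FJ Q J c d) (h' : FJ Q J' c d) {n : ℕ}
    (hn : finrank F V = 2 * n) : ∃ M : V ≃ₗ[F] V, (∀ v, Q (M v) = Q v) ∧ ∀ v, M (J v) = J' (M v) := by
  obtain ⟨v, hv⟩ := exists_onb hQ h n hn.ge
  obtain ⟨v', hv'⟩ := exists_onb hQ h' n hn.ge
  have hd : finrank F ((Fin n → F) × (Fin n → F)) = finrank F V := by
    rw [Module.finrank_prod, Module.finrank_fin_fun, hn]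
    omega
  let e := LinearEquiv.ofInjectiveOfFinrankEq (phi J v) (hv.injective h) hd
  let e' := LinearEquiv.ofInjectiveOfFinrankEq (phi J' v') (hv'.injective h') hd
  have he : ∀ x, e x = phi J v x := fun _ => rfl
  have he' : ∀ x, e' x = phi J' v' x := fun _ => rfl
  refine ⟨e.symm.trans e', fun w => ?_, fun w => ?_⟩
  · obtain ⟨x, rfl⟩ := e.surjective w
    rw [LinearEquiv.trans_apply, LinearEquiv.symm_apply_apply, he, he', hv.Q_phi h, hv'.Q_phi h']
  · obtain ⟨x, rfl⟩ := e.surjective w
    rw [LinearEquiv.trans_apply, LinearEquiv.trans_apply, LinearEquiv.symm_apply_apply, he, J_phi h, ← he,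
      LinearEquiv.symm_apply_apply, he', he', J_phi h']

end Cfsg.Agent.H708.Rg
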