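import Cfsg.Agent.H708.Rg.FJ
import Cfsg.Agent.H198.TriInn

/-!
# S3691, `PΩ⁺₈(q)`: octonion multiplications and triality (helper708)

* `aJ c d` : an octonion with `a² = c a - d`, `N(a) = d`; `fj_lmul`
* `lE a`, `bE a`, `tri_lE : Tri (lE a) (bE a) (lE a)⁻¹`
* `map_perp` : `Tri g g₁ g₂`, `g L_a = L_b g`: `g₁` maps `⟨1, a⟩^⊥` into `⟨1, b⟩^⊥`
-/

set_option autoImplicit false

namespace Cfsg.Agent.H708.Rg

open Module QuadraticMap Cfsg.Agent.LieClassical.OrthCore Cfsg.Agent.LieClassical.OrthTrans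
  Cfsg.Agent.LieClassical.OrthSimple Cfsg.Agent.ClassicalGeometry.OrthAut1
  Cfsg.Agent.ClassicalGeometry.OrthSemi Cfsg.Agent.H198.Classes
  Cfsg.Agent.LieClassical.QuadForms Cfsg.Agent.H198.ClassesPlus
  Cfsg.Agent.ClassicalGeometry.TrialityOct Cfsg.Agent.ClassicalGeometry.Triality
  Cfsg.Agent.ClassicalGeometry.TrialitySpaces Cfsg.Agent.H198.TriBase Cfsg.Agent.H198.TriAut
open Cfsg.Agent.H955

universe u

variable {F : Type u} [Field F]

/-- an octonion with norm `d` and trace `c` -/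
def aJ (c d : F) : V8 F := Sum.elim ![0, 1, 0, 0] ![c, d, 0, 0]

theorem norm_aJ (c d : F) : plusForm 4 F (aJ c d) = d := by
  rw [norm8]
  simp [aJ]

theorem trace_aJ (c d : F) : polar (plusForm 4 F) (one8 F) (aJ c d) = c := by
  rw [polar8]
  simp [aJ, one8]

theorem oconj_eq (x : V8 F) : oconj x = polar (plusForm 4 F) (one8 F) x • one8 F - x := by
  rw [polar8]
  apply ext8 <;>
  simp only [oconj_l0, oconj_l1, oconj_l2, oconj_l3, oconj_r0, oconj_r1, oconj_r2, oconj_r3, Pi.sub_apply,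
    Pi.smul_apply, smul_eq_mul] <;>
  simp [one8]

theorem sq_omul (a v : V8 F) : omul a (omul a v) =
    polar (plusForm 4 F) (one8 F) a • omul a v - plusForm 4 F a • v := by
  have h1 := oconj_omul_omul a v
  rw [oconj_eq a, sub_eq_add_neg, add_omul, smul_omul, one_omul] at h1
  have h2 : omul (-a) (omul a v) = -omul a (omul a v) := by
    have := smul_omul (-1) a (omul a v)
    rwa [neg_one_smul, neg_one_smul] at this
  rw [h2] at h1
  rw [← h1]
  abel

/-- `L_a` generates a field of similitudes -/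
theorem fj_lmul {c d : F} (hirr : ∀ z : F, z * z - c * z + d ≠ 0) :
    FJ (plusForm 4 F) (lmul (aJ c d)) c d where
  sq v := by
    change omul _ (omul _ v) = c • omul _ v - d • v
    rw [sq_omul, norm_aJ, trace_aJ]
  irr := hirr
  sim v := by
    change plusForm 4 F (omul _ v) = _
    rw [norm_omul, norm_aJ]

/-- left multiplication -/
def lE (a : V8 F) (ha : plusForm 4 F a ≠ 0) : V8 F ≃ₗ[F] V8 F :=
  { lP a ha with
    map_add' := fun u v => omul_add a u v
    map_smul' := fun c v => omul_smul c a v }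

theorem lE_apply (a : V8 F) (ha : plusForm 4 F a ≠ 0) (x : V8 F) : lE a ha x = omul a x := rfl

/-- `x ↦ (a x) a` -/
def bE (a : V8 F) (ha : plusForm 4 F a ≠ 0) : V8 F ≃ₗ[F] V8 F :=
  { (lP a ha).trans (rP a ha) with
    map_add' := fun u v => by
      change omul (omul a (u + v)) a = omul (omul a u) a + omul (omul a v) a
      rw [omul_add, add_omul]
    map_smul' := fun c v => by
      change omul (omul a (c • v)) a = c • omul (omul a v) a
      rw [omul_smul, smul_omul] }

theorem bE_apply (a : V8 F) (ha : plusForm 4 F a ≠ 0) (x : V8 F) : bE a ha x = omul (omul a x) a := rfl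

theorem tri_lE (a : V8 F) (ha : plusForm 4 F a ≠ 0) : Tri (lE a ha) (bE a ha) (lE a ha)⁻¹ := by
  intro x y
  obtain ⟨y, rfl⟩ := (lE a ha).surjective y
  have h1 : (lE a ha)⁻¹ (lE a ha y) = y := (lE a ha).symm_apply_apply y
  rw [h1, lE_apply, lE_apply, bE_apply, moufang_left]

theorem bE_eq (a : V8 F) (ha : plusForm 4 F a ≠ 0) (x : V8 F) : bE a ha x =
    (polar (plusForm 4 F) (one8 F) x * polar (plusForm 4 F) (one8 F) a - polar (plusForm 4 F) a x) • a -
      (plusForm 4 F a * polar (plusForm 4 F) (one8 F) x) • one8 F + plusForm 4 F a • x := by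
  have h1 := omul_oconj_omul_self a (oconj x)
  rw [oconj_oconj] at h1
  rw [bE_apply, h1, oconj_eq x, polar_sub_right, polar_smul_right, polar_comm _ a (one8 F)]
  simp only [smul_eq_mul]
  module

/-- `⟨1, a⟩` -/
def Wa (a : V8 F) : Submodule F (V8 F) := Submodule.span F {one8 F, a}

theorem one_mem_Wa (a : V8 F) : one8 F ∈ Wa a := Submodule.subset_span (by simp)

theorem self_mem_Wa (a : V8 F) : a ∈ Wa a := Submodule.subset_span (by simp)

theorem mem_perp_Wa {a x : V8 F} : x ∈ perp (plusForm 4 F) (Wa a) ↔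
    polar (plusForm 4 F) (one8 F) x = 0 ∧ polar (plusForm 4 F) a x = 0 := by
  constructor
  · intro h
    exact ⟨h _ (one_mem_Wa a), h _ (self_mem_Wa a)⟩
  · rintro ⟨h1, h2⟩ w hw
    obtain ⟨s, t, rfl⟩ := Submodule.mem_span_pair.1 hw
    rw [polar_add_left, polar_smul_left, polar_smul_left, h1, h2]
    simp

theorem bE_of_perp {a : V8 F} (ha : plusForm 4 F a ≠ 0) {x : V8 F} (hx : x ∈ perp (plusForm 4 F) (Wa a)) :
    bE a ha x = plusForm 4 F a • x := by
  obtain ⟨h1, h2⟩ := mem_perp_Wa.1 hx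
  rw [bE_eq, h1, h2]
  simp

theorem perp_of_bE {a : V8 F} (ha : plusForm 4 F a ≠ 0) (hli : LinearIndependent F ![one8 F, a]) {x : V8 F}
    (hx : bE a ha x = plusForm 4 F a • x) : x ∈ perp (plusForm 4 F) (Wa a) := by
  rw [bE_eq, add_eq_right] at hx
  have h1 := LinearIndependent.pair_iff.1 hli (-(plusForm 4 F a * polar (plusForm 4 F) (one8 F) x))
    (polar (plusForm 4 F) (one8 F) x * polar (plusForm 4 F) (one8 F) a - polar (plusForm 4 F) a x) (by
      rw [neg_smul, ← hx]
      abel)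
  have h2 : polar (plusForm 4 F) (one8 F) x = 0 :=
    (mul_eq_zero.1 (neg_eq_zero.1 h1.1)).resolve_left ha
  refine mem_perp_Wa.2 ⟨h2, ?_⟩
  have h3 := h1.2
  rw [h2] at h3
  linear_combination -h3

theorem finrank_Wa {a : V8 F} (hli : LinearIndependent F ![one8 F, a]) : finrank F (Wa a) = 2 := by
  have e : Wa a = Submodule.span F (Set.range ![one8 F, a]) := by
    rw [Wa]
    congr 1
    rw [Matrix.range_cons, Matrix.range_cons, Matrix.range_empty, Set.union_empty]
    rfl
  rw [e, finrank_span_eq_card hli, Fintype.card_fin]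

/-- **the key step** -/
theorem map_perp {a b : V8 F} (ha : plusForm 4 F a ≠ 0) (hab : plusForm 4 F b = plusForm 4 F a)
    (hla : LinearIndependent F ![one8 F, a]) (hlb : LinearIndependent F ![one8 F, b])
    {g g₁ g₂ : V8 F ≃ₗ[F] V8 F} (h : Tri g g₁ g₂) (hg : ∀ v, g (omul a v) = omul b (g v)) :
    ∀ x ∈ perp (plusForm 4 F) (Wa a), g₁ x ∈ perp (plusForm 4 F) (Wa b) := by
  have hb : plusForm 4 F b ≠ 0 := by rwa [hab]
  have h1 : Tri (g * lE a ha) (g₁ * bE a ha) (g₂ * (lE a ha)⁻¹) := h.mul (tri_lE a ha)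
  have h2 : Tri (lE b hb * g) (bE b hb * g₁) ((lE b hb)⁻¹ * g₂) := (tri_lE b hb).mul h
  have h3 : lE b hb * g = g * lE a ha := by
    ext1 v
    exact (hg v).symm
  rw [h3] at h2
  obtain ⟨k, hk0, hk, -⟩ := h1.unique h2
  have hk' : ∀ x, bE b hb (g₁ x) = k • g₁ (bE a ha x) := hk
  have h4 : ∀ x ∈ perp (plusForm 4 F) (Wa a), bE b hb (g₁ x) = (k * plusForm 4 F a) • g₁ x := by
    intro x hx
    rw [hk', bE_of_perp ha hx, map_smul, smul_smul]
  have h5 : k = 1 := by
    have hd : finrank F (V8 F) = 8 := by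
      rw [finrank_fintype_fun_eq_card]
      simp
    have e1 : finrank F ((perp (plusForm 4 F) (Wa a)).map (g₁ : V8 F →ₗ[F] V8 F)) = 6 := by
      rw [LinearEquiv.finrank_map_eq, finrank_perp ClassicalGeometry.Triality.nondeg8, finrank_Wa hla, hd]
    have e2 : finrank F (perp (plusForm 4 F) (Wa b)) = 6 := by
      rw [finrank_perp ClassicalGeometry.Triality.nondeg8, finrank_Wa hlb, hd]
    have e3 := Submodule.finrank_sup_add_finrank_inf_eq ((perp (plusForm 4 F) (Wa a)).map (g₁ : V8 F →ₗ[F] V8 F))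
      (perp (plusForm 4 F) (Wa b))
    have e4 := Submodule.finrank_le ((perp (plusForm 4 F) (Wa a)).map (g₁ : V8 F →ₗ[F] V8 F) ⊔
      (perp (plusForm 4 F) (Wa b)))
    have e5 : (perp (plusForm 4 F) (Wa a)).map (g₁ : V8 F →ₗ[F] V8 F) ⊓ perp (plusForm 4 F) (Wa b) ≠ ⊥ := by
      intro h0
      rw [h0, finrank_bot, e1, e2] at e3
      rw [hd] at e4
      omega
    obtain ⟨z, ⟨⟨x, hx, hxz⟩, hz⟩, hz0⟩ := (Submodule.ne_bot_iff _).1 e5
    have hxz' : g₁ x = z := hxz
    have h6 := h4 x hx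
    rw [hxz', bE_of_perp hb hz, hab] at h6
    have h7 : (plusForm 4 F a - k * plusForm 4 F a) • z = 0 := by rw [sub_smul, h6, sub_self]
    have h8 := (smul_eq_zero.1 h7).resolve_right hz0
    apply mul_right_cancel₀ ha
    linear_combination -h8
  intro x hx
  apply perp_of_bE hb hlb
  rw [h4 x hx, h5, one_mul, hab]

end Cfsg.Agent.H708.Rg
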