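import Cfsg.Agent.H955.QSpace

/-!
# S3691, residual cases: the only invariant point / anisotropic plane (helper708)

* `mem_of_sing_perp` : `U` anisotropic: a vector perpendicular to the singular vectors of `U^⊥` lies in `U`
* `uniq` : `U` is the only subspace of its dimension invariant under the Siegel transformations with vectors of `U^⊥`
-/

set_option autoImplicit false

namespace Cfsg.Agent.H708.Rg

open Module QuadraticMap Cfsg.Agent.LieClassical.OrthCore Cfsg.Agent.LieClassical.OrthTrans
  Cfsg.Agent.LieClassical.OrthFinite Cfsg.Agent.H955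

variable {F V : Type*} [Field F] [AddCommGroup V] [Module F V] {Q : QuadraticForm F V}

theorem mem_of_sing_perp [Finite F] [FiniteDimensional F V] (hQ : Nondeg Q) {U : Submodule F V}
    (hU : ∀ w ∈ U, Q w = 0 → w = 0) (hd : finrank F U + 3 ≤ finrank F V) {x : V}
    (hx : ∀ u ∈ perp Q U, Q u = 0 → polar Q u x = 0) : x ∈ U := by
  have hdim := finrank_perp hQ U
  obtain ⟨z, hz, hz0, hQz⟩ := exists_sing_mem (Q := Q) (perp Q U) (by omega)
  have h1 : ∃ y ∈ perp Q U, polar Q z y ≠ 0 := by
    by_contra hc
    push Not at hc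
    apply hz0
    apply hU z ?_ hQz
    rw [← perp_perp hQ U, mem_perp']
    exact hc
  obtain ⟨y, hy, hzy⟩ := h1
  obtain ⟨y1, hy1U, hzy1⟩ : ∃ y1 ∈ perp Q U, polar Q z y1 = 1 :=
    ⟨(polar Q z y)⁻¹ • y, Submodule.smul_mem _ _ hy, by rw [polar_smul_right, smul_eq_mul, inv_mul_cancel₀ hzy]⟩
  set b := y1 + (-Q y1) • z with hb
  have hbU : b ∈ perp Q U := Submodule.add_mem _ hy1U (Submodule.smul_mem _ _ hz)
  have hzz : polar Q z z = 0 := polar_self_of_sing hQz
  have hzb : polar Q z b = 1 := by
    rw [hb, polar_add_right, polar_smul_right, hzz, hzy1, smul_zero, add_zero]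
  have hQb : Q b = 0 := by
    rw [hb, Q_add, QuadraticMap.map_smul, hQz, polar_smul_right, polar_comm Q y1 z, hzy1, smul_zero, smul_eq_mul]
    ring
  have hbb : polar Q b b = 0 := polar_self_of_sing hQb
  rw [← perp_perp hQ U, mem_perp]
  intro w hw
  set c := w - polar Q b w • z - polar Q z w • b with hc
  have hcU : c ∈ perp Q U := Submodule.sub_mem _ (Submodule.sub_mem _ hw (Submodule.smul_mem _ _ hz))
    (Submodule.smul_mem _ _ hbU)
  have hcz : polar Q c z = 0 := by
    rw [hc, polar_sub_left, polar_sub_left, polar_smul_left, polar_smul_left, hzz, polar_comm Q b z, hzb,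
      polar_comm Q w z]
    simp
  have hcb : polar Q c b = 0 := by
    rw [hc, polar_sub_left, polar_sub_left, polar_smul_left, polar_smul_left, hbb, hzb, polar_comm Q w b]
    simp
  have hu : c - Q c • z + b ∈ perp Q U := Submodule.add_mem _ (Submodule.sub_mem _ hcU (Submodule.smul_mem _ _ hz)) hbU
  have hQu : Q (c - Q c • z + b) = 0 := by
    rw [sub_eq_add_neg, ← neg_smul, Q_add, Q_add, QuadraticMap.map_smul, hQz, hQb, polar_add_left, polar_smul_right,
      polar_smul_left, hcz, hcb, hzb]
    simp
  have h2 := hx _ hu hQu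
  rw [polar_add_left, polar_sub_left, polar_smul_left, hx z hz hQz, hx b hbU hQb, smul_zero, sub_zero, add_zero] at h2
  have h3 : w = c + polar Q b w • z + polar Q z w • b := by rw [hc]; abel
  rw [h3, polar_add_left, polar_add_left, polar_smul_left, polar_smul_left, h2, hx z hz hQz, hx b hbU hQb]
  simp

/-- **uniqueness** of the invariant point / anisotropic plane -/
theorem uniq [Finite F] [FiniteDimensional F V] (hQ : Nondeg Q) {U U' : Submodule F V}
    (hU : ∀ w ∈ U, Q w = 0 → w = 0) (hd : 2 * finrank F U + 3 ≤ finrank F V) (hUU : finrank F U' = finrank F U)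
    (hs : ∀ (u w : V) (hu : Q u = 0) (hw : polar Q u w = 0), u ∈ perp Q U → w ∈ perp Q U → ∀ x ∈ U', siegel Q u w hu hw x ∈ U') :
    U' = U := by
  refine Submodule.eq_of_le_of_finrank_eq (fun x hx => ?_) hUU
  refine mem_of_sing_perp hQ hU (by omega) fun u hu hQu => ?_
  by_contra hne
  have hle : perp Q (U ⊔ F ∙ u) ≤ U' ⊔ F ∙ u := by
    intro w hw
    have hwU : w ∈ perp Q U := fun v hv => hw v (Submodule.mem_sup_left hv)
    have huw : polar Q u w = 0 := hw u (Submodule.mem_sup_right (Submodule.mem_span_singleton_self u))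
    have h1 := hs u w hQu huw hu hwU x hx
    rw [siegel_apply] at h1
    have hx' : x ∈ U' ⊔ F ∙ u := Submodule.mem_sup_left hx
    have hu' : u ∈ U' ⊔ F ∙ u := Submodule.mem_sup_right (Submodule.mem_span_singleton_self u)
    have h2 : polar Q u x • w ∈ U' ⊔ F ∙ u := by
      have h3 : polar Q u x • w = (x + polar Q u x • w - polar Q w x • u - (Q w * polar Q u x) • u) - x +
          polar Q w x • u + (Q w * polar Q u x) • u := by abel
      rw [h3]
      exact Submodule.add_mem _ (Submodule.add_mem _ (Submodule.sub_mem _ (Submodule.mem_sup_left h1) hx')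
        (Submodule.smul_mem _ _ hu')) (Submodule.smul_mem _ _ hu')
    exact (Submodule.smul_mem_iff _ hne).1 h2
  have h1 := Submodule.finrank_mono hle
  rw [finrank_perp hQ] at h1
  have h2 : finrank F (F ∙ u) ≤ 1 := by
    have := finrank_span_le_card (R := F) ({u} : Set V)
    simpa using this
  have h3 := Submodule.finrank_add_le_finrank_add_finrank U (F ∙ u)
  have h4 := Submodule.finrank_add_le_finrank_add_finrank U' (F ∙ u)
  omega

end Cfsg.Agent.H708.Rg
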